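import Cfsg.Agent.H664.R1.PSLTwo
import Cfsg.Agent.H732.DegRee
import Cfsg.Agent.H707.GalTrace
import Cfsg.Agent.H996.AllSplit
import Cfsg.Agent.SmallSimple.EvenOrder
import Cfsg.Agent.S0205

/-!
# Groups of Lie type with a degree divisible by four (for S5009, S5004, S5007)

* `im4_char2` : simple groups of Lie type in characteristic two (the Steinberg character);
* `im4_L2` : `PSL₂(F)`, `|F| ≥ 4`;
* `im4_Ree` : the small Ree groups (degree `q³ + 1`).
-/

set_option autoImplicit false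

namespace Cfsg.Agent.H686.Four

open Cfsg

universe u

/-- the Steinberg character -/
theorem im4_of_hasSplit {S : Type u} [Group S] [Finite S] (h : FixBN.HasSplit 2 S) (h4 : 4 ∣ Nat.card S) :
    H33.IM 4 S := by
  have h2 : Fact (Nat.Prime 2) := ⟨Nat.prime_two⟩
  obtain ⟨χ, hχ, -, hQ⟩ := H707.GalTrace.exists_rat_of_hasSplit h
  obtain ⟨Q⟩ : Nonempty (Sylow 2 S) := inferInstance
  refine H33.IM.of_apply_one hχ (hQ Q).1 ?_
  have := Sylow.pow_dvd_card_of_pow_dvd_card (p := 2) (n := 2) (G := S) Q (by simpa using h4)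
  simpa using this

/-- a group with a (B,N)-pair of positive rank is not abelian -/
theorem not_comm_of_split {p : ℕ} {K : Type u} [Group K] (h : FixBN.HasSplit p K) : ¬ IsMulCommutative K := by
  obtain ⟨P, U, ⟨s, hs⟩, -⟩ := h
  intro hc
  have hcm : ∀ a b : K, a * b = b * a := hc.is_comm.comm
  apply P.conj_ne s hs
  have h2 := P.sq_mem s hs
  ext b
  constructor
  · rintro ⟨x, hx, rfl⟩
    have h3 : s * x * s = x * (s * s) := by rw [hcm s x, mul_assoc]
    change s * x * s ∈ P.B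
    rw [h3]
    exact mul_mem hx h2
  · intro hb
    refine ⟨b * (s * s)⁻¹, mul_mem hb (inv_mem h2), ?_⟩
    change s * (b * (s * s)⁻¹) * s = b
    rw [hcm s, mul_assoc, mul_assoc, inv_mul_cancel, mul_one]

theorem four_dvd_card {L : Type u} [Group L] [Finite L] [IsSimpleGroup L]
    (hL : ¬ IsMulCommutative L) : 4 ∣ Nat.card L := by
  apply Cfsg.Agent.SmallSimple.EvenOrder.four_dvd_card hL
  by_contra h2
  have hs : Group.IsSolvable L :=
    Cfsg.Agent.S0205.result (Nat.not_even_iff_odd.mp fun h => h2 (even_iff_two_dvd.mp h))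
  exact hL ⟨⟨IsSimpleGroup.comm_iff_isSolvable.mpr hs⟩⟩

/-- **Characteristic two.** -/
theorem im4_char2 {S : Type u} [Group S] [Finite S] [IsSimpleGroup S] (h : IsLieTypeChar 2 S) : H33.IM 4 S := by
  have hs := H996.AllSplit.hasSplit_of_lie Nat.prime_two h
  exact im4_of_hasSplit hs (four_dvd_card (not_comm_of_split hs))

/-- **`PSL₂(F)`.** -/
theorem im4_L2 (F : Type*) [Field F] [Fintype F] (h4 : 4 ≤ Fintype.card F) :
    H33.IM 4 (Matrix.ProjectiveSpecialLinearGroup (Fin 2) F) := by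
  rcases Nat.even_or_odd (Fintype.card F) with he | ho
  · have h2 : ringChar F = 2 := FiniteField.even_card_iff_char_two.2 (Nat.even_iff.1 he)
    have hc : CharP F 2 := h2 ▸ ringChar.charP F
    have hp : Fact (Nat.Prime 2) := ⟨Nat.prime_two⟩
    obtain ⟨m, -, hm⟩ := FiniteField.card F 2
    refine H664.R1.PSLTwo.im_of_mem (H664.R1.PSLTwo.degrees_even (F := F) h4).1 ?_
    rw [hm] at h4 ⊢
    have h3 : 2 ≤ (m : ℕ) := by
      by_contra h
      have h1 : (m : ℕ) = 0 ∨ (m : ℕ) = 1 := by omega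
      rcases h1 with h1 | h1 <;> rw [h1] at h4 <;> norm_num at h4
    exact pow_dvd_pow 2 h3
  · by_cases h5 : Fintype.card F = 5
    · exact H664.R1.PSLTwo.im_of_mem (H664.R1.PSLTwo.degrees_five h5).2.1 dvd_rfl
    · rw [Nat.odd_iff] at ho
      obtain ⟨-, h1, h2⟩ := H664.R1.PSLTwo.degrees_odd (F := F) (Nat.odd_iff.2 ho) (by omega)
      have h3 : Fintype.card F % 4 = 1 ∨ Fintype.card F % 4 = 3 := by omega
      rcases h3 with h3 | h3
      · exact H664.R1.PSLTwo.im_of_mem h2 (by omega)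
      · exact H664.R1.PSLTwo.im_of_mem h1 (by omega)

theorem im4_L2_equiv {S : Type u} [Group S] (F : Type*) [Field F] [Fintype F] (h4 : 4 ≤ Fintype.card F)
    (e : S ≃* Matrix.ProjectiveSpecialLinearGroup (Fin 2) F) : H33.IM 4 S :=
  (im4_L2 F h4).of_equiv e

theorem three_pow_mod (m : ℕ) : 3 ^ (2 * m + 1) % 8 = 3 := by
  rw [pow_succ, pow_mul, Nat.mul_mod, Nat.pow_mod]
  norm_num

/-- **The small Ree groups.** -/
theorem im4_Ree {S : Type u} [Group S] (h : Lie.IsoRee S) : H33.IM 4 S := by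
  obtain ⟨m, hm, F, -⟩ := H732.DegRee.facts_of_iso h
  refine H664.R1.PSLTwo.im_of_mem F.ps ?_
  have h8 := three_pow_mod m
  have h9 : (3 ^ (2 * m + 1)) ^ 3 % 8 = 3 := by rw [Nat.pow_mod, h8]
  omega

end Cfsg.Agent.H686.Four
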